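import Cfsg.Agent.H146.OreOdd
import Cfsg.Agent.TitsThree.KSideO

/-!
# Commutators in `Ω` of odd dimension whose first member has eigenvectors for `1` and `-1` of the same norm

`ore_odd_star` : the theorem `ore_odd` of `H146/OreOdd.lean` with this additional output;
`tstar_odd` : the form for the group `E Q`.
-/

set_option autoImplicit false
set_option linter.unusedSectionVars false

universe u v

namespace Cfsg.Agent.H397.QS.TStar

open Module QuadraticMap
open Cfsg.Agent.ClassicalGeometry.Reflection Cfsg.Agent.ClassicalGeometry.SpinorSign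
  Cfsg.Agent.ClassicalGeometry.OmegaIndex Cfsg.Agent.ClassicalGeometry.Universal
  Cfsg.Agent.ClassicalGeometry.CartanDieudonne Cfsg.Agent.ClassicalGeometry.GenReflections
open Cfsg.Agent.H146.Ore

variable {ι : Type} [Fintype ι] [DecidableEq ι] {F : Type u} [Field F]

section G

variable {Q : QuadraticForm F (ι → F)}

/-- an involution times a reflection in a fixed vector -/
theorem unpeel (h2 : (2 : F) ≠ 0) {s : Cfsg.isometryGroup F (⇑Q)} (hs : s * s = 1) {x : ι → F} (hx : Q x ≠ 0)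
    (hsx : act Q s x = x) :
    (s * reflIso Q x hx) * (s * reflIso Q x hx) = 1 ∧ s * reflIso Q x hx = reflIso Q x hx * s ∧
      finrank F (Em Q (s * reflIso Q x hx)) = finrank F (Em Q s) + 1 := by
  have hc : s * reflIso Q x hx = reflIso Q x hx * s := by
    have := conj_refl hx hx s (Or.inl hsx)
    rw [mul_inv_eq_iff_eq_mul] at this
    exact this
  have hrx : act Q (reflIso Q x hx) x = -x := by
    rw [act_reflIso, polar_eq_two]
    have : (Q x)⁻¹ * (2 * Q x) = 2 := by field_simp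
    rw [this, two_smul]; abel
  have h1 : (s * reflIso Q x hx) * (s * reflIso Q x hx) = 1 := by
    calc s * reflIso Q x hx * (s * reflIso Q x hx) = s * reflIso Q x hx * (reflIso Q x hx * s) := by rw [hc]
      _ = s * (reflIso Q x hx * reflIso Q x hx) * s := by group
      _ = 1 := by rw [reflIso_mul_self, mul_one, hs]
  refine ⟨h1, hc, ?_⟩
  obtain ⟨-, -, -, -, h5⟩ := peel h2 h1 hx (by rw [act_mul, hrx, map_neg, hsx])
  rw [mul_assoc, reflIso_mul_self, mul_one] at h5
  exact h5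

/-- a common nonsingular fixed vector of two involutions with small `(-1)`-eigenspaces -/
theorem exists_common (h2 : (2 : F) ≠ 0) (hQ : (polarBilin Q).Nondegenerate) {s t : Cfsg.isometryGroup F (⇑Q)}
    (hs : s * s = 1) (ht : t * t = 1) (hst : finrank F (Em Q s) = finrank F (Em Q t))
    (h3 : 3 * finrank F (Em Q s) < Fintype.card ι) : ∃ j, Q j ≠ 0 ∧ act Q s j = j ∧ act Q t j = j := by
  by_contra hcon
  push Not at hcon
  have hle : ∀ z, z ∈ Pp Q (Em Q s ⊔ Em Q t) ↔ act Q s z = z ∧ act Q t z = z := by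
    intro z
    rw [← mem_Pp_Em h2 hQ hs, ← mem_Pp_Em h2 hQ ht]
    constructor
    · intro h
      exact ⟨fun y hy => h y (Submodule.mem_sup_left hy), fun y hy => h y (Submodule.mem_sup_right hy)⟩
    · rintro ⟨h, h'⟩ y hy
      obtain ⟨a, ha, b, hb, rfl⟩ := Submodule.mem_sup.1 hy
      rw [polar_add_left, h a ha, h' b hb, add_zero]
  have hQ0 : ∀ z ∈ Pp Q (Em Q s ⊔ Em Q t), Q z = 0 := by
    intro z hz
    by_contra h
    exact hcon z h ((hle z).1 hz).1 ((hle z).1 hz).2
  obtain ⟨C, hC⟩ : ∃ C, C = Pp Q (Em Q s ⊔ Em Q t) := ⟨_, rfl⟩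
  have h4 : C ≤ Em Q s ⊔ Em Q t := by
    rw [← Pp_Pp hQ (Em Q s ⊔ Em Q t), ← hC]
    intro z hz y hy
    rw [hC] at hz hy
    rw [polar, hQ0 _ (Submodule.add_mem _ hy hz), hQ0 _ hz, hQ0 _ hy, sub_zero, sub_zero]
  have h5 : C ⊓ Em Q s = ⊥ := by
    rw [eq_bot_iff, ← Em_nondeg h2 hQ hs]
    rintro z ⟨hz, hz'⟩
    refine ⟨hz', ?_⟩
    rw [SetLike.mem_coe, hC] at hz
    exact (mem_Pp_Em h2 hQ hs).2 ((hle z).1 hz).1
  have h6 := Submodule.finrank_sup_add_finrank_inf_eq C (Em Q s)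
  rw [h5, finrank_bot, add_zero] at h6
  have h7 : C ⊔ Em Q s ≤ Em Q s ⊔ Em Q t := sup_le h4 le_sup_left
  have h8 := Submodule.finrank_mono h7
  have h9 := finrank_Pp hQ (Em Q s ⊔ Em Q t)
  rw [← hC] at h9
  have h10 := Submodule.finrank_add_le_finrank_add_finrank (Em Q s) (Em Q t)
  omega

/-- enlarging the `(-1)`-eigenspaces -/
theorem enlarge (h2 : (2 : F) ≠ 0) (hQ : (polarBilin Q).Nondegenerate) (h7 : 7 ≤ Fintype.card ι)
    {g : Cfsg.isometryGroup F (⇑Q)} (k : ℕ) : ∀ s t : Cfsg.isometryGroup F (⇑Q), s * s = 1 → t * t = 1 → s * t = g →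
      finrank F (Em Q s) = finrank F (Em Q t) → finrank F (Em Q s) + k = 3 →
      ∃ s t : Cfsg.isometryGroup F (⇑Q), s * s = 1 ∧ t * t = 1 ∧ s * t = g ∧
        finrank F (Em Q s) = finrank F (Em Q t) ∧ finrank F (Em Q s) = 3 := by
  induction k with
  | zero =>
    intro s t hs ht hst he h3
    exact ⟨s, t, hs, ht, hst, he, h3⟩
  | succ k ih =>
    intro s t hs ht hst he h3
    obtain ⟨j, hj, hsj, htj⟩ := exists_common h2 hQ hs ht he (by omega)
    obtain ⟨a1, -, a3⟩ := unpeel h2 hs hj hsj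
    obtain ⟨b1, b2, b3⟩ := unpeel h2 ht hj htj
    refine ih (s * reflIso Q j hj) (t * reflIso Q j hj) a1 b1 ?_ (by omega) (by omega)
    calc s * reflIso Q j hj * (t * reflIso Q j hj) = s * reflIso Q j hj * (reflIso Q j hj * t) := by rw [b2]
      _ = s * (reflIso Q j hj * reflIso Q j hj) * t := by group
      _ = g := by rw [reflIso_mul_self, mul_one, hst]

/-- two involutions with product `g` and large `(-1)`-eigenspaces -/
theorem exists_fac_three (h2 : (2 : F) ≠ 0) (hQ : (polarBilin Q).Nondegenerate) (h7 : 7 ≤ Fintype.card ι)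
    (g : Cfsg.isometryGroup F (⇑Q)) [Finite F] (hg : (del Q g).1 = 1) :
    ∃ s t : Cfsg.isometryGroup F (⇑Q), s * s = 1 ∧ t * t = 1 ∧ s * t = g ∧
      finrank F (Em Q s) = finrank F (Em Q t) ∧ 3 ≤ finrank F (Em Q s) ∧
        2 * finrank F (Em Q s) ≤ Fintype.card ι := by
  obtain ⟨s, t, hs, ht, hst, he, hle⟩ := exists_fac_eq h2 hQ g hg
  by_cases h3 : 3 ≤ finrank F (Em Q s)
  · exact ⟨s, t, hs, ht, hst, he, h3, hle⟩
  · obtain ⟨s', t', hs', ht', hst', he', h3'⟩ :=
      enlarge h2 hQ h7 (3 - finrank F (Em Q s)) s t hs ht hst he (by omega)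
    exact ⟨s', t', hs', ht', hst', he', by omega, by omega⟩

/-- a subspace with a radical of smaller dimension has a nonsingular vector -/
theorem exists_ns_of_rad {W : Submodule F (ι → F)}
    (hW : finrank F (W ⊓ Pp Q W : Submodule F (ι → F)) < finrank F W) : ∃ w ∈ W, Q w ≠ 0 := by
  by_contra hcon
  push Not at hcon
  have : W ≤ W ⊓ Pp Q W := by
    refine le_inf le_rfl fun x hx y hy => ?_
    rw [polar, hcon _ (W.add_mem hy hx), hcon _ hx, hcon _ hy, sub_zero, sub_zero]
  have := Submodule.finrank_mono this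
  omega

variable [Finite F]

/-- **Ore's theorem for odd-dimensional orthogonal groups**, the first member has eigenvectors for `1` and `-1` of
the same nonzero norm -/
theorem ore_odd_star (h2 : (2 : F) ≠ 0) (hQ : (polarBilin Q).Nondegenerate) {n : ℕ} (hn : 3 ≤ n)
    (hc : Fintype.card ι = 2 * n + 1) (g : Cfsg.isometryGroup F (⇑Q)) (hg : del Q g = 1) :
    ∃ a b : Cfsg.isometryGroup F (⇑Q), del Q a = 1 ∧ del Q b = 1 ∧ g = a * b * a⁻¹ * b⁻¹ ∧
      ∃ v w, act Q a v = v ∧ act Q a w = -w ∧ Q v = Q w ∧ Q v ≠ 0 := by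
  obtain ⟨s, t, hs, ht, hst, hm, hm3, hm2⟩ := exists_fac_three h2 hQ (by omega) g (by rw [hg]; rfl)
  have hdel : del Q s = del Q t := by
    have e1 : del Q s * del Q t = 1 := by rw [← map_mul, hst, hg]
    have e2 : del Q t * del Q t = 1 := by rw [← map_mul, ht, map_one]
    rw [← e2] at e1
    exact mul_right_cancel e1
  obtain ⟨y, U, hU1, hU2, hy1, hy2, -⟩ := exists_Y h2 hQ _ s t hs ht rfl hm.symm hdel
  have hodd : Odd (Fintype.card ι) := ⟨n, hc⟩
  have hfU := finrank_Pp hQ U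
  have hrU := rad_Pp hQ h2 hU2
  have hcases : ∀ x : Fˣ, x = 1 ∨ x = -1 → x⁻¹ = 1 ∨ x⁻¹ = -1 := by
    rintro x (rfl | rfl)
    · left; simp
    · right; simp
  obtain ⟨a, haW, ha, ε, hε, hεa⟩ := exists_c h2 hQ hodd (W := Pp Q U) (by omega) (del Q s)⁻¹
    (hcases _ (del_fst_cases h2 hQ s))
  have hr' := rad_le h2 hQ hs a
  have hf' := finrank_Pp hQ (Em Q s ⊔ Submodule.span F {a})
  have hf'' := Submodule.finrank_add_le_finrank_add_finrank (Em Q s) (Submodule.span F {a})
  have hf3 : finrank F (Submodule.span F {a}) ≤ 1 := (finrank_span_le_card ({a} : Set (ι → F))).trans (by simp)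
  obtain ⟨p, hpW, hp, ε', hε', hεp⟩ := exists_c h2 hQ hodd
    (W := Pp Q (Em Q s ⊔ Submodule.span F {a})) (by omega) (del Q y)⁻¹
    (hcases _ (del_fst_cases h2 hQ y))
  rw [Pp_sup, mem_Pp_Em h2 hQ hs] at hpW
  have hcy : Commute (ε * reflIso Q a ha) y :=
    (commute_eps hε).mul_left (commute_refl ha (hy2 a haW))
  have hds : Commute (ε' * reflIso Q p hp) (s * (ε * reflIso Q a ha)) := by
    refine (commute_eps hε').mul_left (Commute.mul_right (commute_refl hp hpW.1)
      (Commute.mul_right (commute_eps hε).symm ?_))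
    exact commute_refl hp (act_refl_of_perp ha hpW.2)
  -- the eigenvectors
  have hns : (negI Q * s) * (negI Q * s) = 1 := by
    rw [show negI Q * s * (negI Q * s) = negI Q * (s * negI Q) * s by group, ← negI_comm,
      show negI Q * (negI Q * s) * s = (negI Q * negI Q) * (s * s) by group, negI_mul_negI, hs, one_mul]
  have k1 := rad_le h2 hQ hns a
  have k2 := finrank_Pp hQ (Em Q (negI Q * s) ⊔ Submodule.span F {a})
  have k3 := Submodule.finrank_add_le_finrank_add_finrank (Em Q (negI Q * s)) (Submodule.span F {a})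
  have k4 := finrank_Em_neg h2 hs
  obtain ⟨w, hw, hw0⟩ := exists_ns_of_rad (Q := Q) (W := Pp Q (Em Q (negI Q * s) ⊔ Submodule.span F {a})) (by omega)
  obtain ⟨v, hv, hvw⟩ := rep (Q := Q) h2 (W := Pp Q (Em Q s ⊔ Submodule.span F {a})) (by omega) (Q w)
  rw [Pp_sup, mem_Pp_Em h2 hQ hns, act_mul, act_negI, neg_eq_iff_eq_neg] at hw
  rw [Pp_sup, mem_Pp_Em h2 hQ hs] at hv
  have hraw : act Q (reflIso Q a ha) w = w := act_refl_of_perp ha hw.2
  have hrav : act Q (reflIso Q a ha) v = v := act_refl_of_perp ha hv.2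
  refine ⟨s * (ε * reflIso Q a ha), y * (ε' * reflIso Q p hp), ?_, ?_, ?_, ?_⟩
  · rw [map_mul, hεa, mul_inv_cancel]
  · rw [map_mul, hεp, mul_inv_cancel]
  · exact commutator_eq hs (by rw [hy1, hst]) hcy hds
  · rcases hε with rfl | rfl
    · refine ⟨v, w, ?_, ?_, hvw, by rw [hvw]; exact hw0⟩
      · rw [act_mul, act_mul, hrav, act_one, hv.1]
      · rw [act_mul, act_mul, hraw, act_one, hw.1]
    · refine ⟨w, v, ?_, ?_, hvw.symm, hw0⟩
      · rw [act_mul, act_mul, hraw, act_negI, map_neg, hw.1, neg_neg]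
      · rw [act_mul, act_mul, hrav, act_negI, map_neg, hv.1]

end G

/-! ### The group `E Q` -/

section E

open Cfsg.Agent.LieClassical.OrthCore Cfsg.Agent.LieClassical.OrthTrans Cfsg.Agent.TitsThree.KSideO
  Cfsg.Agent.LieClassical.OrthFinite

variable {κ : Type} [Fintype κ] [DecidableEq κ] {F : Type u} [Field F] {Q : QuadraticForm F (κ → F)}

theorem act_toOmega (hG : Good Q) (g : E Q) (v : κ → F) :
    act Q (toOmega hG g : Cfsg.isometryGroup F ⇑Q) v = g.1 v := by
  rw [act_apply, ← omegaEquiv_apply]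
  have h1 : (omegaEquiv Q).trans (MulEquiv.subgroupCongr hG.commutator_eq_E) (toOmega hG g) = g :=
    MulEquiv.apply_symm_apply _ _
  exact congrArg (fun k : E Q => k.1 v) h1

/-- **T*, odd dimension**: every element of `E Q` is a commutator of elements of `E Q`, the first of which has
eigenvectors for `1` and `-1` of the same nonzero norm. -/
theorem tstar_odd [Finite F] (hG : Good Q) (h2 : (2 : F) ≠ 0) {n : ℕ} (hn : 3 ≤ n)
    (hc : Fintype.card κ = 2 * n + 1) (g : (κ → F) ≃ₗ[F] (κ → F)) (hg : g ∈ E Q) :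
    ∃ x ∈ E Q, ∃ k ∈ E Q, g = x * k * x⁻¹ * k⁻¹ ∧
      ∃ u w : κ → F, x u = u ∧ x w = -w ∧ Q u = Q w ∧ Q u ≠ 0 := by
  have hQ : (polarBilin Q).Nondegenerate := by
    refine ⟨fun x hx => hG.nondeg x fun y => ?_, fun x hx => hG.nondeg x fun y => ?_⟩
    · have := hx y
      rwa [polarBilin_apply_apply] at this
    · have := hx y
      rwa [polarBilin_apply_apply, polar_comm] at this
  have key : ∀ g : Cfsg.isometryGroup F ⇑Q, g ∈ Cfsg.Omega F ⇑Q ↔ del Q g = 1 := by
    intro g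
    rw [mem_Omega_iff h2 _ hQ (by omega) one_ne_zero]
    exact (detSpinor_eq_one_iff _ _ g).symm
  obtain ⟨a, b, ha, hb, hab, v, w, h⟩ := ore_odd_star h2 hQ hn hc (toOmega hG ⟨g, hg⟩).1
    ((key _).1 (toOmega hG ⟨g, hg⟩).2)
  obtain ⟨a', ha'⟩ := (toOmega hG).surjective ⟨a, (key a).2 ha⟩
  obtain ⟨b', hb'⟩ := (toOmega hG).surjective ⟨b, (key b).2 hb⟩
  have hact : ∀ z, a'.1 z = act Q a z := by
    intro z
    rw [← act_toOmega hG a' z, ha']
  refine ⟨a'.1, a'.2, b'.1, b'.2, ?_, v, w, ?_⟩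
  · have h1 : toOmega hG ⟨g, hg⟩ = toOmega hG (a' * b' * a'⁻¹ * b'⁻¹) := by
      rw [map_mul, map_mul, map_mul, map_inv, map_inv, ha', hb']
      exact Subtype.ext hab
    exact congrArg Subtype.val ((toOmega hG).injective h1)
  · rw [hact, hact]
    exact h

end E

end Cfsg.Agent.H397.QS.TStar
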